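import Cfsg.Agent.SignalizersComponents.Components

/-!
# `F*` of a group with a self-centralizing normal quasisimple subgroup (helper827)

* `layer_eq`, `fstar_eq` : if `N` is a normal quasisimple subgroup of `X` with `C_X(N) ≤ N`, then
  `E(X) = F*(X) = N`.
* `mulAut_equiv` : if moreover `Z(N) = C_X(N)`, and `N / Z(N) ≅ Φ` with `|Aut Φ| ≤ |X / Z(N)|`, then
  `X / Z(N) ≅ Aut Φ`.
-/

set_option autoImplicit false

namespace Cfsg.Agent.H827.FStar

open Subgroup Cfsg
open Cfsg.Agent.SignalizersComponents

variable {X : Type*} [Group X]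

theorem layer_eq {N : Subgroup X} (hn : N.Normal) (hq : IsQuasisimple ↥N)
    (hC : centralizer (N : Set X) ≤ N) : layer X = N := by
  have hcomp : IsComponent N := ⟨hn.isSubnormal, hq⟩
  apply le_antisymm
  · rw [Components.layer_le_iff]
    intro L hL
    by_contra hne
    have hLI : L ≠ N := fun h => hne h.le
    have h1 := Components.component_le_centralizer_of_ne hL hcomp hLI
    exact hne (h1.trans hC)
  · exact Components.component_le_layer hcomp

theorem fstar_eq {N : Subgroup X} (hn : N.Normal) (hq : IsQuasisimple ↥N)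
    (hC : centralizer (N : Set X) ≤ N) : generalizedFittingSubgroup X = N := by
  have h1 := layer_eq hn hq hC
  have h2 : fittingSubgroup X ≤ N := by
    have h3 := Components.layer_commutator_fitting (G := X)
    rw [commutator_comm, commutator_eq_bot_iff_le_centralizer, h1] at h3
    exact h3.trans hC
  show layer X ⊔ fittingSubgroup X = N
  rw [h1]
  exact sup_eq_left.2 h2

/-! ### The automorphisms of `N / Z(N)` -/

theorem hom_eq_one {N M : Type*} [Group N] [Group M] (hp : Group.IsPerfect N) (f : N →* M)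
    (hf : ∀ a b, f a * f b = f b * f a) (n : N) : f n = 1 := by
  have h5 : commutator N ≤ f.ker := by
    rw [commutator_def, commutator_le]
    intro a _ b _
    rw [MonoidHom.mem_ker, map_commutatorElement, commutatorElement_eq_one_iff_mul_comm]
    exact hf a b
  rw [hp.commutator_eq_top] at h5
  exact h5 (mem_top n)

section aut

variable {Φ : Type*} [Group Φ] {N Z : Subgroup X} [N.Normal] [Z.Normal] (π : ↥N →* Φ)
  (hs : Function.Surjective π) (hker : ∀ n : ↥N, π n = 1 ↔ (n : X) ∈ Z)

include hs hker

/-- the endomorphism induced by conjugation -/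
noncomputable def endo (x : X) : Φ →* Φ :=
  π.liftOfSurjective hs ⟨π.comp (MulAut.conjNormal x : MulAut ↥N).toMonoidHom, fun n hn => by
    rw [MonoidHom.mem_ker] at hn ⊢
    rw [hker] at hn
    show π (MulAut.conjNormal x n) = 1
    rw [hker]
    exact (inferInstance : Z.Normal).conj_mem _ hn x⟩

theorem endo_apply (x : X) (n : ↥N) : endo π hs hker x (π n) = π (MulAut.conjNormal x n) :=
  MonoidHom.liftOfRightInverse_comp_apply _ _ (Function.rightInverse_surjInv hs) _ n

theorem endo_mul (x y : X) (φ : Φ) :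
    endo π hs hker (x * y) φ = endo π hs hker x (endo π hs hker y φ) := by
  obtain ⟨n, rfl⟩ := hs φ
  rw [endo_apply, endo_apply, endo_apply, map_mul, MulAut.mul_apply]

theorem endo_one (φ : Φ) : endo π hs hker 1 φ = φ := by
  obtain ⟨n, rfl⟩ := hs φ
  rw [endo_apply, map_one, MulAut.one_apply]

/-- the homomorphism to the automorphism group -/
noncomputable def toAut : X →* MulAut Φ where
  toFun x :=
    { toFun := endo π hs hker x
      invFun := endo π hs hker x⁻¹
      left_inv := fun φ => by rw [← endo_mul, inv_mul_cancel, endo_one]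
      right_inv := fun φ => by rw [← endo_mul, mul_inv_cancel, endo_one]
      map_mul' := map_mul _ }
  map_one' := by
    ext φ
    exact endo_one π hs hker φ
  map_mul' x y := by
    ext φ
    exact endo_mul π hs hker x y φ

theorem toAut_apply (x : X) (n : ↥N) : toAut π hs hker x (π n) = π (MulAut.conjNormal x n) :=
  endo_apply π hs hker x n

theorem toAut_ker (hp : Group.IsPerfect ↥N) (hcen : ∀ z ∈ Z, ∀ n ∈ N, z * n = n * z)
    (hZC : ∀ x : X, (∀ n ∈ N, x * n = n * x) → x ∈ Z) : (toAut π hs hker).ker = Z := by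
  ext x
  rw [MonoidHom.mem_ker]
  constructor
  · intro h
    apply hZC
    have h1 : ∀ n : ↥N, x * (n : X) * x⁻¹ * (n : X)⁻¹ ∈ Z := by
      intro n
      have h2 := toAut_apply π hs hker x n
      rw [h, MulAut.one_apply] at h2
      have h3 : π (MulAut.conjNormal x n * n⁻¹) = 1 := by
        rw [map_mul, map_inv, ← h2, mul_inv_cancel]
      exact (hker _).1 h3
    let f : ↥N →* X :=
      { toFun := fun n => x * (n : X) * x⁻¹ * (n : X)⁻¹
        map_one' := by simp
        map_mul' := fun m n => by
          have h4 := hcen _ (h1 n) (m : X)⁻¹ (N.inv_mem m.2)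
          calc x * ((m * n : ↥N) : X) * x⁻¹ * ((m * n : ↥N) : X)⁻¹
              = x * (m : X) * x⁻¹ * ((x * (n : X) * x⁻¹ * (n : X)⁻¹) * (m : X)⁻¹) := by
                rw [Subgroup.coe_mul]; group
            _ = x * (m : X) * x⁻¹ * ((m : X)⁻¹ * (x * (n : X) * x⁻¹ * (n : X)⁻¹)) := by rw [h4]
            _ = _ := by group }
    have hf := hom_eq_one hp f fun m n => hcen _ (h1 m) _ (N.mul_mem
      ((inferInstance : N.Normal).conj_mem _ n.2 x) (N.inv_mem n.2))
    intro n hn
    have h7 : x * n * x⁻¹ * n⁻¹ = 1 := hf ⟨n, hn⟩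
    calc x * n = (x * n * x⁻¹ * n⁻¹) * (n * x) := by group
      _ = n * x := by rw [h7, one_mul]
  · intro hx
    ext φ
    obtain ⟨n, rfl⟩ := hs φ
    rw [toAut_apply, MulAut.one_apply]
    congr 1
    apply Subtype.ext
    show x * (n : X) * x⁻¹ = n
    rw [hcen x hx n n.2, mul_inv_cancel_right]

/-- **`X / Z ≅ Aut Φ`** -/
theorem mulAut_equiv [Finite X] [Finite Φ] (hp : Group.IsPerfect ↥N) (hcen : ∀ z ∈ Z, ∀ n ∈ N, z * n = n * z)
    (hZC : ∀ x : X, (∀ n ∈ N, x * n = n * x) → x ∈ Z) (hcard : Nat.card (MulAut Φ) ≤ Z.index) :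
    Nonempty (X ⧸ Z ≃* MulAut Φ) := by
  have hk := toAut_ker π hs hker hp hcen hZC
  have hinj := QuotientGroup.kerLift_injective (toAut π hs hker)
  have hfin : Finite (MulAut Φ) := by
    apply Finite.of_injective (fun α : MulAut Φ => (α : Φ → Φ))
    intro a b h
    exact DFunLike.coe_injective h
  have h1 : Nat.card (X ⧸ (toAut π hs hker).ker) = Nat.card (MulAut Φ) := by
    apply le_antisymm (Nat.card_le_card_of_injective _ hinj)
    rw [hk]
    exact hcard
  have hbij : Function.Bijective (QuotientGroup.kerLift (toAut π hs hker)) :=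
    (Nat.bijective_iff_injective_and_card _).2 ⟨hinj, h1⟩
  exact ⟨(QuotientGroup.quotientMulEquivOfEq hk.symm).trans (MulEquiv.ofBijective _ hbij)⟩

end aut

end Cfsg.Agent.H827.FStar
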